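-- helper78: interfaces for S4414 (Thompson N-groups lemma: fixed points of a Sylow 2-subgroup on an
-- irreducible F_2-module of a {2,p,q}-group).  Proof idea: extend scalars to an algebraically closed
-- field, decompose into weight spaces of the abelian normal p-subgroup, S_q permutes the weights
-- freely, and the fixed space of the 2-group has dimension at least the number of its orbits on weights.
import Mathlib

set_option autoImplicit false

namespace Cfsg.Agent.Lib.Helper78.TN

open scoped TensorProduct

universe u v w x

/-- the subspace of vectors fixed by all elements of `T` -/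
def fixedSub {k : Type u} [Field k] {G : Type v} [Group G] {V : Type w} [AddCommGroup V]
    [Module k V] (ρ : Representation k G V) (T : Set G) : Submodule k V where
  carrier := {v | ∀ t ∈ T, ρ t v = v}
  add_mem' := by
    intro a b ha hb t ht
    rw [map_add, ha t ht, hb t ht]
  zero_mem' := by
    intro t _
    exact map_zero _
  smul_mem' := by
    intro c a ha t ht
    rw [map_smul, ha t ht]

theorem mem_fixedSub {k : Type u} [Field k] {G : Type v} [Group G] {V : Type w} [AddCommGroup V]
    [Module k V] (ρ : Representation k G V) (T : Set G) (v : V) :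
    v ∈ fixedSub ρ T ↔ ∀ t ∈ T, ρ t v = v := Iff.rfl

/-- base change (extension of scalars) of a representation -/
noncomputable def bc {k : Type u} [Field k] (F : Type v) [Field F] [Algebra k F] {G : Type w}
    [Group G] {V : Type x} [AddCommGroup V] [Module k V] (ρ : Representation k G V) :
    Representation F G (F ⊗[k] V) where
  toFun g := (ρ g).baseChange F
  map_one' := by
    rw [map_one]
    exact LinearMap.baseChange_id
  map_mul' := by
    intro g h
    rw [map_mul]
    exact LinearMap.baseChange_comp _ _

theorem bc_apply {k : Type u} [Field k] (F : Type v) [Field F] [Algebra k F] {G : Type w}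
    [Group G] {V : Type x} [AddCommGroup V] [Module k V] (ρ : Representation k G V) (g : G) :
    bc F ρ g = (ρ g).baseChange F := rfl

theorem bc_tmul {k : Type u} [Field k] (F : Type v) [Field F] [Algebra k F] {G : Type w}
    [Group G] {V : Type x} [AddCommGroup V] [Module k V] (ρ : Representation k G V) (g : G)
    (a : F) (m : V) : bc F ρ g (a ⊗ₜ[k] m) = a ⊗ₜ[k] ρ g m := rfl

/-- a "weight system": a direct sum decomposition `V = ⨁ W i` permuted by the group `S`
(`R g` maps `W i` into `W (act g i)`), such that `Q` acts freely on the indices of the nonzero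
summands. -/
structure WSys {F : Type u} [Field F] {S : Type v} [Group S] {V : Type w} [AddCommGroup V]
    [Module F V] (R : Representation F S V) (Q : Subgroup S) (ι : Type x) where
  act : S → ι → ι
  act_one : ∀ i, act 1 i = i
  act_mul : ∀ g h i, act (g * h) i = act g (act h i)
  W : ι → Submodule F V
  indep : iSupIndep W
  top : ⨆ i, W i = ⊤
  map : ∀ (g : S) (i : ι) (v : V), v ∈ W i → R g v ∈ W (act g i)
  free : ∀ x ∈ Q, x ≠ 1 → ∀ i, W i ≠ ⊥ → act x i ≠ i

/-- [P-BC] fixed points commute with extension of scalars. -/
def LemBC : Prop :=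
  ∀ {k : Type u} [Field k] {F : Type v} [Field F] [Algebra k F] {G : Type w} [Group G]
    {V : Type x} [AddCommGroup V] [Module k V] [Module.Finite k V]
    (ρ : Representation k G V) (T : Subgroup G) [Finite T],
    Module.finrank F (fixedSub (bc F ρ) (T : Set G)) = Module.finrank k (fixedSub ρ (T : Set G)) ∧
    ∀ Q : Subgroup G,
      (∀ y ∈ Q, ∀ m ∈ fixedSub ρ (T : Set G), ρ y m ∈ fixedSub ρ (T : Set G)) →
      ∀ y ∈ Q, ∀ z ∈ fixedSub (bc F ρ) (T : Set G),
        bc F ρ y z ∈ fixedSub (bc F ρ) (T : Set G)

/-- [P-W] weights of an abelian normal subgroup `N` of odd order over an algebraically closed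
field of characteristic 2; a subgroup `Q` of prime order with `[N, Q] = N` permutes them freely
when `N` has no nonzero fixed vector. -/
def LemWeights : Prop :=
  ∀ {F : Type u} [Field F] [IsAlgClosed F] [CharP F 2] {S : Type v} [Group S] {V : Type w}
    [AddCommGroup V] [Module F V] [FiniteDimensional F V]
    (R : Representation F S V) (N Q : Subgroup S) [N.Normal] [Finite N]
    (_hNab : ∀ a ∈ N, ∀ b ∈ N, a * b = b * a) (_hNodd : Odd (Nat.card N))
    (q : ℕ) (_hq : q.Prime) (_hQ : Nat.card Q = q) (_hcomm : ⁅N, Q⁆ = N)
    (_hfix : fixedSub R (N : Set S) = ⊥),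
    Nonempty (WSys.{u, v, w, max u v} R Q (N → F))

/-- [P-FV] a finite 2-group acting on a nonzero invariant subspace in characteristic 2 has a
nonzero fixed vector there (the field may be infinite). -/
def LemFV : Prop :=
  ∀ {F : Type u} [Field F] [CharP F 2] {S : Type v} [Group S] {V : Type w} [AddCommGroup V]
    [Module F V] (R : Representation F S V) (T : Subgroup S) [Finite T] (_hT : IsPGroup 2 T)
    (W' : Submodule F V) (_hW' : W' ≠ ⊥) (_hinv : ∀ t ∈ T, ∀ m ∈ W', R t m ∈ W'),
    ∃ m ∈ W', m ≠ 0 ∧ m ∈ fixedSub R (T : Set S)

/-- [P-CNT] orbit counting: with a weight system on which `Q` (of odd prime order) acts freely, the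
fixed space of a finite 2-group `T` has dimension at least 2, and at least 3 if it is
`Q`-invariant. -/
def LemCount : Prop :=
  ∀ {F : Type u} [Field F] [CharP F 2] {S : Type v} [Group S] {V : Type w} [AddCommGroup V]
    [Module F V] [FiniteDimensional F V] [Nontrivial V]
    (R : Representation F S V) (T Q : Subgroup S) [Finite T] (_hT : IsPGroup 2 T)
    (q : ℕ) (_hq : q.Prime) (_hq2 : q ≠ 2) (_hQ : Nat.card Q = q)
    {ι : Type x} (_D : WSys R Q ι),
    2 ≤ Module.finrank F (fixedSub R (T : Set S)) ∧
    ((∀ y ∈ Q, ∀ m ∈ fixedSub R (T : Set S), R y m ∈ fixedSub R (T : Set S)) →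
      3 ≤ Module.finrank F (fixedSub R (T : Set S)))

/-- [P-DEC] component maps of a weight system: `c i` is the projection onto `W i` along the other
summands; it is equivariant for the group action. -/
def LemDec : Prop :=
  ∀ {F : Type u} [Field F] {S : Type v} [Group S] {V : Type w} [AddCommGroup V] [Module F V]
    (R : Representation F S V) (Q : Subgroup S) {ι : Type x} (D : WSys R Q ι),
    ∃ c : ι → (V →ₗ[F] V),
      (∀ i m, c i m ∈ D.W i) ∧
      (∀ i m, m ∈ D.W i → c i m = m) ∧
      (∀ i j m, m ∈ D.W i → i ≠ j → c j m = 0) ∧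
      (∀ m, (∀ i, c i m = 0) → m = 0) ∧
      (∀ (g : S) i m, c (D.act g i) (R g m) = R g (c i m))

end Cfsg.Agent.Lib.Helper78.TN
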