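-- helper78: [P-CNT] orbit counting for S4414.
import Cfsg.Agent.Lib.Helper78.TN.Defs

set_option autoImplicit false

namespace Cfsg.Agent.Lib.Helper78.TN

universe u v w x

/-- vectors with "dual" functionals are linearly independent -/
theorem linIndep_of_dual {K : Type u} [Field K] {V : Type w} [AddCommGroup V] [Module K V]
    {κ : Type} (b : κ → V) (φ : κ → (V →ₗ[K] V)) (h1 : ∀ i, φ i (b i) ≠ 0)
    (h2 : ∀ i j, i ≠ j → φ i (b j) = 0) : LinearIndependent K b := by
  classical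
  rw [linearIndependent_iff']
  intro s g hg i hi
  have h := congrArg (φ i) hg
  rw [map_sum, map_zero, Finset.sum_eq_single i] at h
  · rw [map_smul] at h
    exact (smul_eq_zero.mp h).resolve_right (h1 i)
  · intro j _ hji
    rw [map_smul, h2 i j (Ne.symm hji), smul_zero]
  · intro hni
    exact absurd hi hni

/-- a lower bound for the dimension of a subspace from vectors with dual functionals -/
theorem finrank_ge_of_dual {K : Type u} [Field K] {V : Type w} [AddCommGroup V] [Module K V]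
    [FiniteDimensional K V] (U : Submodule K V) (r : ℕ) (b : Fin r → V) (hb : ∀ i, b i ∈ U)
    (φ : Fin r → (V →ₗ[K] V)) (h1 : ∀ i, φ i (b i) ≠ 0)
    (h2 : ∀ i j, i ≠ j → φ i (b j) = 0) : r ≤ Module.finrank K U := by
  have hli : LinearIndependent K b := linIndep_of_dual b φ h1 h2
  have hspan : Submodule.span K (Set.range b) ≤ U := by
    rw [Submodule.span_le]
    rintro _ ⟨i, rfl⟩
    exact hb i
  have h3 : Module.finrank K (Submodule.span K (Set.range b)) = Fintype.card (Fin r) :=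
    finrank_span_eq_card hli
  rw [Fintype.card_fin] at h3
  rw [← h3]
  exact Submodule.finrank_mono hspan

theorem lemCount (hFV : LemFV.{u, v, w}) (hDec : LemDec.{u, v, w, x}) : LemCount.{u, v, w, x} := by
  intro F _ _ S _ V _ _ _ _ R T Q _ hT q hq hq2 hQ ι D
  classical
  haveI : Fact (Nat.Prime 2) := ⟨Nat.prime_two⟩
  haveI : Fact q.Prime := ⟨hq⟩
  obtain ⟨c, c1, c2, c3, c4, c5⟩ := hDec R Q D
  have hRinj : ∀ (g : S) (m : V), R g m = 0 → m = 0 := by
    intro g m h
    have h1 : R g⁻¹ (R g m) = m := by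
      rw [← Module.End.mul_apply, ← map_mul, inv_mul_cancel, map_one]
      rfl
    rw [h, map_zero] at h1
    exact h1.symm
  have hWact : ∀ (g : S) (i : ι), D.W i ≠ ⊥ → D.W (D.act g i) ≠ ⊥ := by
    intro g i hi
    obtain ⟨m, hm, hm0⟩ := (Submodule.ne_bot_iff _).mp hi
    exact (Submodule.ne_bot_iff _).mpr ⟨R g m, D.map g i m hm, fun h => hm0 (hRinj g m h)⟩
  letI instA : MulAction S {i : ι // D.W i ≠ ⊥} :=
    { smul := fun g i => ⟨D.act g i.1, hWact g i.1 i.2⟩
      one_smul := fun i => Subtype.ext (D.act_one i.1)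
      mul_smul := fun g h i => Subtype.ext (D.act_mul g h i.1) }
  have hsmul : ∀ (g : S) (i : {i : ι // D.W i ≠ ⊥}), (g • i).1 = D.act g i.1 := fun _ _ => rfl
  haveI : Finite {i : ι // D.W i ≠ ⊥} :=
    (Submodule.finite_ne_bot_of_iSupIndep D.indep).to_subtype
  haveI : Nonempty {i : ι // D.W i ≠ ⊥} := by
    by_contra h
    rw [not_nonempty_iff] at h
    have h1 : (⨆ i, D.W i) = ⊥ := by
      rw [iSup_eq_bot]
      intro i
      by_contra hi
      exact h.false ⟨i, hi⟩
    rw [D.top] at h1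
    exact top_ne_bot h1
  -- components vanish outside the nonzero summands
  have c0 : ∀ (i : ι) (m : V), c i m ≠ 0 → D.W i ≠ ⊥ := by
    intro i m h hi
    have h1 := c1 i m
    rw [hi, Submodule.mem_bot] at h1
    exact h h1
  -- equivariance on the index subtype
  have k2 : ∀ (g : S) (ω : {i : ι // D.W i ≠ ⊥}) (m : V),
      c (g • ω).1 (R g m) = R g (c ω.1 m) := fun g ω m => c5 g ω.1 m
  have k1 : ∀ (m : V), m ∈ fixedSub R (T : Set S) → ∀ (t : ↥T) (ω : {i : ι // D.W i ≠ ⊥}),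
      c (t • ω).1 m = R t (c ω.1 m) := by
    intro m hm t ω
    have h1 := k2 (t : S) ω m
    rw [hm t t.2] at h1
    exact h1
  -- fixed vectors supported on an orbit
  have k3 : ∀ a : {i : ι // D.W i ≠ ⊥}, ∃ m ∈ fixedSub R (T : Set S),
      ∀ ω : {i : ι // D.W i ≠ ⊥}, c ω.1 m ≠ 0 ↔ ω ∈ MulAction.orbit ↥T a := by
    intro a
    have hW' : (⨆ (ω : {i : ι // D.W i ≠ ⊥}) (_ : ω ∈ MulAction.orbit ↥T a), D.W ω.1) ≠ ⊥ := by
      intro h
      have h1 : D.W a.1 ≤ ⨆ (ω : {i : ι // D.W i ≠ ⊥}) (_ : ω ∈ MulAction.orbit ↥T a), D.W ω.1 :=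
        le_iSup₂_of_le a (MulAction.mem_orbit_self a) le_rfl
      rw [h] at h1
      exact a.2 (le_bot_iff.mp h1)
    have hinv : ∀ t ∈ T, ∀ m ∈ (⨆ (ω : {i : ι // D.W i ≠ ⊥}) (_ : ω ∈ MulAction.orbit ↥T a),
        D.W ω.1), R t m ∈ (⨆ (ω : {i : ι // D.W i ≠ ⊥}) (_ : ω ∈ MulAction.orbit ↥T a),
        D.W ω.1) := by
      intro t ht
      have h1 : (⨆ (ω : {i : ι // D.W i ≠ ⊥}) (_ : ω ∈ MulAction.orbit ↥T a), D.W ω.1) ≤
          (⨆ (ω : {i : ι // D.W i ≠ ⊥}) (_ : ω ∈ MulAction.orbit ↥T a), D.W ω.1).comap (R t) := by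
        apply iSup₂_le
        intro ω hω m hm
        rw [Submodule.mem_comap]
        have h2 : R t m ∈ D.W ((⟨t, ht⟩ : ↥T) • ω).1 := D.map t ω.1 m hm
        have h3 : D.W ((⟨t, ht⟩ : ↥T) • ω).1 ≤
            ⨆ (ω : {i : ι // D.W i ≠ ⊥}) (_ : ω ∈ MulAction.orbit ↥T a), D.W ω.1 :=
          le_iSup₂_of_le ((⟨t, ht⟩ : ↥T) • ω)
            (MulAction.mem_orbit_of_mem_orbit (⟨t, ht⟩ : ↥T) hω) le_rfl
        exact h3 h2
      intro m hm
      exact h1 hm
    obtain ⟨m, hmW, hm0, hmfix⟩ := hFV R T hT _ hW' hinv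
    refine ⟨m, hmfix, ?_⟩
    have hout : ∀ ω : {i : ι // D.W i ≠ ⊥}, ω ∉ MulAction.orbit ↥T a → c ω.1 m = 0 := by
      intro ω hω
      have h1 : (⨆ (ω : {i : ι // D.W i ≠ ⊥}) (_ : ω ∈ MulAction.orbit ↥T a), D.W ω.1) ≤
          LinearMap.ker (c ω.1) := by
        apply iSup₂_le
        intro ω' hω' m' hm'
        rw [LinearMap.mem_ker]
        apply c3 ω'.1 ω.1 m' hm'
        intro h
        apply hω
        have : ω' = ω := Subtype.ext h
        rw [← this]
        exact hω'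
      exact LinearMap.mem_ker.mp (h1 hmW)
    obtain ⟨ω0, hω0⟩ : ∃ ω0 : {i : ι // D.W i ≠ ⊥}, c ω0.1 m ≠ 0 := by
      by_contra h
      push Not at h
      apply hm0
      apply c4
      intro i
      by_contra hi
      exact hi (h ⟨i, c0 i m hi⟩)
    have hω0orb : ω0 ∈ MulAction.orbit ↥T a := by
      by_contra h
      exact hω0 (hout ω0 h)
    intro ω
    constructor
    · intro h
      by_contra hω
      exact h (hout ω hω)
    · intro hω
      have h1 : ω ∈ MulAction.orbit ↥T ω0 := by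
        rw [MulAction.orbit_eq_iff.mpr hω0orb]
        exact hω
      obtain ⟨t, rfl⟩ := MulAction.mem_orbit_iff.mp h1
      rw [k1 m hmfix t ω0]
      intro h
      exact hω0 (hRinj _ _ h)
  have hQp : IsPGroup q ↥Q := IsPGroup.of_card (n := 1) (by rw [pow_one]; exact hQ)
  have hQcard : 1 < Nat.card ↥Q := by rw [hQ]; exact hq.one_lt
  haveI : Finite ↥Q := Nat.finite_of_card_ne_zero (by omega)
  obtain ⟨x0, hx0⟩ : ∃ y : ↥Q, y ≠ 1 := by
    haveI : Nontrivial ↥Q := Finite.one_lt_card_iff_nontrivial.mp hQcard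
    exact exists_ne 1
  have hfree : ∀ (y : ↥Q), y ≠ 1 → ∀ ω : {i : ι // D.W i ≠ ⊥}, y • ω ≠ ω := by
    intro y hy ω h
    apply D.free (y : S) y.2 (fun h1 => hy (Subtype.ext h1)) ω.1 ω.2
    exact congrArg Subtype.val h
  have hqΩ : q ∣ Nat.card {i : ι // D.W i ≠ ⊥} := by
    have h1 := hQp.card_modEq_card_fixedPoints {i : ι // D.W i ≠ ⊥}
    have h2 : Nat.card (MulAction.fixedPoints ↥Q {i : ι // D.W i ≠ ⊥}) = 0 := by
      haveI : IsEmpty (MulAction.fixedPoints ↥Q {i : ι // D.W i ≠ ⊥}) :=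
        ⟨fun ω => hfree x0 hx0 ω.1 (ω.2 x0)⟩
      exact Nat.card_of_isEmpty
    rw [h2] at h1
    exact (Nat.modEq_zero_iff_dvd).mp h1
  obtain ⟨a0⟩ := ‹Nonempty {i : ι // D.W i ≠ ⊥}›
  have horbcard : ∀ a : {i : ι // D.W i ≠ ⊥}, ∃ n : ℕ,
      Nat.card (MulAction.orbit ↥T a) = 2 ^ n := fun a => hT.card_orbit a
  have hqpow : ∀ n : ℕ, ¬ q ∣ 2 ^ n := by
    intro n h
    have h1 := hq.dvd_of_dvd_pow h
    exact hq2 ((Nat.prime_dvd_prime_iff_eq hq Nat.prime_two).mp h1)
  have hsymm : ∀ a b : {i : ι // D.W i ≠ ⊥}, a ∉ MulAction.orbit ↥T b →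
      b ∉ MulAction.orbit ↥T a := by
    intro a b h h'
    apply h
    rw [← MulAction.orbit_eq_iff] at h' ⊢
    exact h'.symm
  obtain ⟨a1, ha1⟩ : ∃ a1, a1 ∉ MulAction.orbit ↥T a0 := by
    by_contra h
    push Not at h
    obtain ⟨n, hn⟩ := horbcard a0
    have h1 : Nat.card (MulAction.orbit ↥T a0) = Nat.card {i : ι // D.W i ≠ ⊥} := by
      have h2 : MulAction.orbit ↥T a0 = Set.univ := Set.eq_univ_of_forall h
      rw [h2]
      exact Nat.card_congr (Equiv.Set.univ _)
    rw [← h1, hn] at hqΩ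
    exact hqpow n hqΩ
  have ha0 : a0 ∉ MulAction.orbit ↥T a1 := hsymm a1 a0 ha1
  obtain ⟨u0, hu0, hs0⟩ := k3 a0
  obtain ⟨u1, hu1, hs1⟩ := k3 a1
  have hfin2 : 2 ≤ Module.finrank F (fixedSub R (T : Set S)) := by
    apply finrank_ge_of_dual (fixedSub R (T : Set S)) 2 ![u0, u1] ?_ ![c a0.1, c a1.1]
    · intro i
      fin_cases i
      · exact (hs0 a0).mpr (MulAction.mem_orbit_self a0)
      · exact (hs1 a1).mpr (MulAction.mem_orbit_self a1)
    · intro i j hij
      fin_cases i <;> fin_cases j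
      · exact absurd rfl hij
      · by_contra h
        exact ha0 ((hs1 a0).mp h)
      · by_contra h
        exact ha1 ((hs0 a1).mp h)
      · exact absurd rfl hij
    · intro i
      fin_cases i
      · exact hu0
      · exact hu1
  refine ⟨hfin2, ?_⟩
  intro hinvQ
  obtain ⟨a2, ha2, ha2'⟩ : ∃ a2, a2 ∉ MulAction.orbit ↥T a0 ∧ a2 ∉ MulAction.orbit ↥T a1 := by
    by_contra hcon
    push Not at hcon
    have dich : ∀ y : ↥Q, (∃ ω ∈ MulAction.orbit ↥T a0, y • ω ∉ MulAction.orbit ↥T a0) →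
        ∀ ω, ω ∈ MulAction.orbit ↥T a0 ↔ y • ω ∈ MulAction.orbit ↥T a1 := by
      rintro y ⟨ω1, hω1, hω1'⟩
      have hfixy : R (y : S) u0 ∈ fixedSub R (T : Set S) := hinvQ y y.2 u0 hu0
      have P1 : ∀ ω, c (y • ω).1 (R (y : S) u0) ≠ 0 ↔ ω ∈ MulAction.orbit ↥T a0 := by
        intro ω
        rw [← hs0 ω]
        have h1 : c (y • ω).1 (R (y : S) u0) = R (y : S) (c ω.1 u0) := k2 (y : S) ω u0
        rw [h1]
        constructor
        · intro h h0
          apply h
          rw [h0, map_zero]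
        · intro h h0
          exact h (hRinj _ _ h0)
      have P2 : ∀ (ω ω' : {i : ι // D.W i ≠ ⊥}), ω' ∈ MulAction.orbit ↥T ω →
          (c ω.1 (R (y : S) u0) ≠ 0 ↔ c ω'.1 (R (y : S) u0) ≠ 0) := by
        intro ω ω' h
        obtain ⟨t, rfl⟩ := MulAction.mem_orbit_iff.mp h
        rw [k1 _ hfixy t ω]
        constructor
        · intro h1 h2
          exact h1 (hRinj _ _ h2)
        · intro h1 h2
          apply h1
          rw [h2, map_zero]
      have hB1 : y • ω1 ∈ MulAction.orbit ↥T a1 := hcon _ hω1'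
      have hPB : ∀ ω, ω ∈ MulAction.orbit ↥T a1 → c ω.1 (R (y : S) u0) ≠ 0 := by
        intro ω hω
        have h1 : ω ∈ MulAction.orbit ↥T (y • ω1) := by
          rw [MulAction.orbit_eq_iff.mpr hB1]
          exact hω
        exact (P2 (y • ω1) ω h1).mp ((P1 ω1).mpr hω1)
      have hPA : ∀ ω, ω ∈ MulAction.orbit ↥T a0 → c ω.1 (R (y : S) u0) = 0 := by
        intro ω hω
        by_contra h
        have hall : ∀ ω' : {i : ι // D.W i ≠ ⊥}, c ω'.1 (R (y : S) u0) ≠ 0 := by
          intro ω'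
          by_cases h' : ω' ∈ MulAction.orbit ↥T a0
          · have h1 : ω' ∈ MulAction.orbit ↥T ω := by
              rw [MulAction.orbit_eq_iff.mpr hω]
              exact h'
            exact (P2 ω ω' h1).mp h
          · exact hPB ω' (hcon ω' h')
        exact ha1 ((P1 a1).mp (hall (y • a1)))
      intro ω
      constructor
      · intro hω
        by_contra h
        have h1 : y • ω ∈ MulAction.orbit ↥T a0 := by
          by_contra h2
          exact h (hcon _ h2)
        exact (P1 ω).mpr hω (hPA _ h1)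
      · intro hω
        exact (P1 ω).mp (hPB _ hω)
    by_cases hI : ∃ y : ↥Q, y ≠ 1 ∧
        ∀ ω ∈ MulAction.orbit ↥T a0, y • ω ∈ MulAction.orbit ↥T a0
    · obtain ⟨y, hy1, hyA⟩ := hI
      obtain ⟨n, hn⟩ := horbcard a0
      apply hqpow n
      rw [← hn]
      let f : Function.End (MulAction.orbit ↥T a0) := fun ω => ⟨y • ω.1, hyA ω.1 ω.2⟩
      have hfpow : ∀ (k : ℕ) (ω : MulAction.orbit ↥T a0), ((f ^ k) ω).1 = y ^ k • ω.1 := by
        intro k
        induction k with
        | zero =>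
          intro ω
          rw [pow_zero, pow_zero, one_smul]
          rfl
        | succ k ih =>
          intro ω
          have h1 : (f ^ (k + 1)) ω = (f ^ k) (f ω) := by
            rw [pow_succ]
            rfl
          rw [h1, ih, pow_succ, mul_smul]
      have hf : f ^ q ^ 1 = 1 := by
        funext ω
        apply Subtype.ext
        rw [pow_one, hfpow]
        have h1 : y ^ q = 1 := by
          rw [← hQ]
          exact pow_card_eq_one'
        rw [h1, one_smul]
        rfl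
      haveI : Fintype (MulAction.orbit ↥T a0) := Fintype.ofFinite _
      have h1 := Equiv.Perm.card_fixedPoints_modEq (f := f) (p := q) (n := 1) hf
      have h2 : Fintype.card (Function.fixedPoints f) = 0 := by
        rw [Fintype.card_eq_zero_iff]
        exact ⟨fun ω => hfree y hy1 ω.1.1 (congrArg Subtype.val ω.2)⟩
      rw [h2] at h1
      rw [Nat.card_eq_fintype_card]
      exact (Nat.modEq_zero_iff_dvd).mp h1
    · push Not at hI
      have hx2 : x0 * x0 ≠ 1 := by
        intro h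
        have h1 : orderOf x0 ∣ 2 := orderOf_dvd_of_pow_eq_one (by rw [pow_two]; exact h)
        have h2 : orderOf x0 ∣ q := by
          rw [← hQ]
          exact orderOf_dvd_natCard x0
        have h3 : orderOf x0 ∣ Nat.gcd 2 q := Nat.dvd_gcd h1 h2
        have h4 : Nat.gcd 2 q = 1 :=
          (Nat.coprime_primes Nat.prime_two hq).mpr (Ne.symm hq2)
        rw [h4, Nat.dvd_one, orderOf_eq_one_iff] at h3
        exact hx0 h3
      have d1 := dich x0 (hI x0 hx0)
      have d2 := dich (x0 * x0) (hI _ hx2)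
      obtain ⟨ω, hω, hω'⟩ := hI x0 hx0
      apply hω'
      rw [d1 (x0 • ω), ← mul_smul]
      exact (d2 ω).mp hω
  have ha02 : a0 ∉ MulAction.orbit ↥T a2 := hsymm a2 a0 ha2
  have ha12 : a1 ∉ MulAction.orbit ↥T a2 := hsymm a2 a1 ha2'
  obtain ⟨u2, hu2, hs2⟩ := k3 a2
  apply finrank_ge_of_dual (fixedSub R (T : Set S)) 3 ![u0, u1, u2] ?_ ![c a0.1, c a1.1, c a2.1]
  · intro i
    fin_cases i
    · exact (hs0 a0).mpr (MulAction.mem_orbit_self a0)
    · exact (hs1 a1).mpr (MulAction.mem_orbit_self a1)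
    · exact (hs2 a2).mpr (MulAction.mem_orbit_self a2)
  · intro i j hij
    fin_cases i <;> fin_cases j
    · exact absurd rfl hij
    · by_contra h
      exact ha0 ((hs1 a0).mp h)
    · by_contra h
      exact ha02 ((hs2 a0).mp h)
    · by_contra h
      exact ha1 ((hs0 a1).mp h)
    · exact absurd rfl hij
    · by_contra h
      exact ha12 ((hs2 a1).mp h)
    · by_contra h
      exact ha2 ((hs0 a2).mp h)
    · by_contra h
      exact ha2' ((hs1 a2).mp h)
    · exact absurd rfl hij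
  · intro i
    fin_cases i
    · exact hu0
    · exact hu1
    · exact hu2

end Cfsg.Agent.Lib.Helper78.TN
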