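-- helper78: S4414 from the three interface lemmas of TN/Defs.lean.
import Cfsg.Agent.Lib.Helper78.TN.Defs

set_option autoImplicit false

namespace Cfsg.Agent.Lib.Helper78.TN

open scoped TensorProduct

universe u v

theorem s4414_of (hB : LemBC.{0, 0, u, v}) (hW : LemWeights.{0, u, v}) (hC : LemCount.{0, u, v, u})
    {S : Type u} [Group S] [Finite S] (p q : ℕ) (hp : p.Prime) (hq : q.Prime) (hp2 : p ≠ 2)
    (hq2 : q ≠ 2) (S₂ : Sylow 2 S) (Sp : Sylow p S) (Sq : Sylow q S)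
    (hSpN : (Sp : Subgroup S).Normal)
    (hSpcard : Nat.card ↥Sp = p ∨ Nat.card ↥Sp = p ^ 2)
    (hSq : Nat.card ↥Sq = q)
    (hcomm : ⁅(Sp : Subgroup S), (Sq : Subgroup S)⁆ = (Sp : Subgroup S))
    {E : Type v} [AddCommGroup E] [Module (ZMod 2) E] [Finite E]
    (ρ : Representation (ZMod 2) S E) (hE : Nontrivial E)
    (hirr : ∀ N : Submodule (ZMod 2) E, (∀ s : S, ∀ m ∈ N, ρ s m ∈ N) → N = ⊥ ∨ N = ⊤)
    (hfaith : ∀ x ∈ (Sp : Subgroup S), ρ x = 1 → x = 1) :
    8 ≤ Nat.card {v : E // ∀ s ∈ (S₂ : Subgroup S), ρ s v = v} ∨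
      (Nat.card {v : E // ∀ s ∈ (S₂ : Subgroup S), ρ s v = v} = 4 ∧
        ∃ x ∈ (Sq : Subgroup S), ∃ v : E, (∀ s ∈ (S₂ : Subgroup S), ρ s v = v) ∧
          ¬ ∀ s ∈ (S₂ : Subgroup S), ρ s (ρ x v) = ρ x v) := by
  classical
  haveI : Fact (Nat.Prime 2) := ⟨Nat.prime_two⟩
  haveI : Fact p.Prime := ⟨hp⟩
  haveI := hSpN
  have hSpcard' : Nat.card ↥(Sp : Subgroup S) = p ∨ Nat.card ↥(Sp : Subgroup S) = p ^ 2 := hSpcard
  have hSq' : Nat.card ↥(Sq : Subgroup S) = q := hSq
  -- `S_p` is abelian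
  have hNab : ∀ a ∈ (Sp : Subgroup S), ∀ b ∈ (Sp : Subgroup S), a * b = b * a := by
    have key : ∀ a b : ↥(Sp : Subgroup S), a * b = b * a := by
      rcases hSpcard' with h | h
      · haveI : IsCyclic ↥(Sp : Subgroup S) := isCyclic_of_prime_card h
        intro a b
        obtain ⟨g, hg⟩ := IsCyclic.exists_generator (α := ↥(Sp : Subgroup S))
        obtain ⟨i, rfl⟩ := Subgroup.mem_zpowers_iff.mp (hg a)
        obtain ⟨j, rfl⟩ := Subgroup.mem_zpowers_iff.mp (hg b)
        rw [← zpow_add, ← zpow_add, add_comm]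
      · exact IsPGroup.commutative_of_card_eq_prime_sq h
    intro a ha b hb
    exact congrArg Subtype.val (key ⟨a, ha⟩ ⟨b, hb⟩)
  have hNodd : Odd (Nat.card ↥(Sp : Subgroup S)) := by
    have hpodd : Odd p := hp.odd_of_ne_two hp2
    rcases hSpcard' with h | h
    · rw [h]; exact hpodd
    · rw [h]; exact hpodd.pow
  have hT : IsPGroup 2 ↥(S₂ : Subgroup S) := S₂.isPGroup'
  -- `S_p` has no nonzero fixed vector on `E`
  have hfixE : fixedSub ρ ((Sp : Subgroup S) : Set S) = ⊥ := by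
    have hinv : ∀ s : S, ∀ m ∈ fixedSub ρ ((Sp : Subgroup S) : Set S),
        ρ s m ∈ fixedSub ρ ((Sp : Subgroup S) : Set S) := by
      intro s m hm n hn
      have hn' : s⁻¹ * n * s ∈ (Sp : Subgroup S) := by
        have := hSpN.conj_mem n hn s⁻¹
        simpa using this
      have h1 := hm _ hn'
      have h2 : ρ n (ρ s m) = ρ s (ρ (s⁻¹ * n * s) m) := by
        rw [← Module.End.mul_apply, ← Module.End.mul_apply, ← map_mul, ← map_mul]
        congr 2
        group
      rw [h2, h1]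
    rcases hirr _ hinv with h | h
    · exact h
    · exfalso
      have h1 : ∀ n ∈ (Sp : Subgroup S), n = 1 := by
        intro n hn
        apply hfaith n hn
        ext m
        have hm : m ∈ fixedSub ρ ((Sp : Subgroup S) : Set S) := by rw [h]; trivial
        exact hm n hn
      have hbot : (Sp : Subgroup S) = ⊥ := (Subgroup.eq_bot_iff_forall _).mpr h1
      have hc : Nat.card ↥(Sp : Subgroup S) = 1 := by rw [hbot]; exact Subgroup.card_bot
      have h1p := hp.one_lt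
      rcases hSpcard' with h' | h'
      · rw [hc] at h'; omega
      · rw [hc] at h'
        have : 1 < p ^ 2 := Nat.one_lt_pow (by norm_num) h1p
        omega
  haveI : Module.Finite (ZMod 2) E := Module.Finite.of_finite
  obtain ⟨hfr2, htr2⟩ := hB (F := AlgebraicClosure (ZMod 2)) ρ (S₂ : Subgroup S)
  obtain ⟨hfrN, -⟩ := hB (F := AlgebraicClosure (ZMod 2)) ρ (Sp : Subgroup S)
  have hfixV : fixedSub (bc (AlgebraicClosure (ZMod 2)) ρ) ((Sp : Subgroup S) : Set S) = ⊥ := by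
    have h0 : Module.finrank (AlgebraicClosure (ZMod 2))
        (fixedSub (bc (AlgebraicClosure (ZMod 2)) ρ) ((Sp : Subgroup S) : Set S)) = 0 := by
      rw [hfrN, hfixE]
      exact finrank_bot _ _
    exact Submodule.finrank_eq_zero.mp h0
  haveI : Nontrivial (AlgebraicClosure (ZMod 2) ⊗[ZMod 2] E) := by
    apply Module.nontrivial_of_finrank_pos (R := AlgebraicClosure (ZMod 2))
    rw [Module.finrank_baseChange]
    exact Module.finrank_pos
  obtain ⟨D⟩ := hW (bc (AlgebraicClosure (ZMod 2)) ρ) (Sp : Subgroup S) (Sq : Subgroup S)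
    hNab hNodd q hq hSq' hcomm hfixV
  obtain ⟨h2, h3⟩ := hC (bc (AlgebraicClosure (ZMod 2)) ρ) (S₂ : Subgroup S) (Sq : Subgroup S)
    hT q hq hq2 hSq' D
  rw [hfr2] at h2 h3
  have hcard : Nat.card {v : E // ∀ s ∈ (S₂ : Subgroup S), ρ s v = v} =
      2 ^ Module.finrank (ZMod 2) (fixedSub ρ ((S₂ : Subgroup S) : Set S)) := by
    have h1 : Nat.card ↥(fixedSub ρ ((S₂ : Subgroup S) : Set S)) =
        Nat.card (ZMod 2) ^ Module.finrank (ZMod 2) (fixedSub ρ ((S₂ : Subgroup S) : Set S)) :=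
      Module.natCard_eq_pow_finrank
    rw [Nat.card_zmod] at h1
    exact h1
  by_cases hd3 : 3 ≤ Module.finrank (ZMod 2) (fixedSub ρ ((S₂ : Subgroup S) : Set S))
  · left
    rw [hcard]
    calc 8 = 2 ^ 3 := by norm_num
      _ ≤ _ := Nat.pow_le_pow_right (by norm_num) hd3
  · right
    have hd2 : Module.finrank (ZMod 2) (fixedSub ρ ((S₂ : Subgroup S) : Set S)) = 2 := by omega
    refine ⟨by rw [hcard, hd2]; norm_num, ?_⟩
    by_contra hcon
    push Not at hcon
    apply hd3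
    apply h3
    apply htr2 (Sq : Subgroup S)
    intro y hy m hm s hs
    exact hcon y hy m hm s hs

end Cfsg.Agent.Lib.Helper78.TN
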